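import Mathlib

set_option autoImplicit false

namespace Cfsg.Agent.Lib.helper26.AutOrbA

open Subgroup
open scoped commutatorElement

/-- In a group whose commutator subgroup is central, `x ↦ ⁅x, y⁆` is multiplicative. -/
theorem comm_mul {G : Type*} [Group G] (hDZ : commutator G ≤ Subgroup.center G) (x x' y : G) :
    ⁅x * x', y⁆ = ⁅x, y⁆ * ⁅x', y⁆ := by
  have h : ⁅x', y⁆ ∈ Subgroup.center G := hDZ (by
    rw [commutator_def]
    exact Subgroup.commutator_mem_commutator (Subgroup.mem_top _) (Subgroup.mem_top _))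
  have h2 : x * ⁅x', y⁆ = ⁅x', y⁆ * x := (Subgroup.mem_center_iff.mp h) x
  have h3 : ⁅x, y⁆ * ⁅x', y⁆ = ⁅x', y⁆ * ⁅x, y⁆ := (Subgroup.mem_center_iff.mp h) ⁅x, y⁆
  calc ⁅x * x', y⁆ = x * ⁅x', y⁆ * x⁻¹ * ⁅x, y⁆ := by
        simp only [commutatorElement_def]; group
    _ = ⁅x', y⁆ * x * x⁻¹ * ⁅x, y⁆ := by rw [h2]
    _ = ⁅x', y⁆ * ⁅x, y⁆ := by rw [mul_inv_cancel_right]
    _ = ⁅x, y⁆ * ⁅x', y⁆ := h3.symm

/-- (A) for S4067: if `G' ` is central of prime order `p` and the centre has an element `e` of
order dividing `p` outside `G'`, then every non-central element has at least `p ^ 2` images under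
`Aut G`. -/
theorem caseA {G : Type*} [Group G] [Finite G] {p : ℕ} (hp : p.Prime)
    (hD : Nat.card (commutator G) = p) (hDZ : commutator G ≤ Subgroup.center G) (e : G)
    (heZ : e ∈ Subgroup.center G) (hep : e ^ p = 1) (heD : e ∉ commutator G) (g : G)
    (hg : g ∉ Subgroup.center G) : p ^ 2 ≤ Nat.card (MulAction.orbit (MulAut G) g) := by
  haveI : Fact p.Prime := ⟨hp⟩
  obtain ⟨y, hy⟩ : ∃ y : G, ⁅g, y⁆ ≠ 1 := by
    by_contra hcon
    push_neg at hcon
    apply hg
    rw [Subgroup.mem_center_iff]
    intro x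
    have := hcon x
    rw [commutatorElement_eq_one_iff_commute] at this
    exact this.eq.symm
  have hmemD : ∀ x : G, ⁅x, y⁆ ∈ commutator G := fun x => by
    rw [commutator_def]
    exact Subgroup.commutator_mem_commutator (Subgroup.mem_top _) (Subgroup.mem_top _)
  let lam : G →* commutator G :=
    { toFun := fun x => ⟨⁅x, y⁆, hmemD x⟩
      map_one' := by
        apply Subtype.ext
        show ⁅(1 : G), y⁆ = 1
        rw [commutatorElement_eq_one_iff_commute]; exact Commute.one_left y
      map_mul' := fun x x' => by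
        apply Subtype.ext
        show ⁅x * x', y⁆ = ⁅x, y⁆ * ⁅x', y⁆
        exact comm_mul hDZ x x' y }
  have hlam : ∀ x : G, ((lam x : commutator G) : G) = ⁅x, y⁆ := fun x => rfl
  obtain ⟨c, hc⟩ : ∃ c : commutator G, c = lam g := ⟨_, rfl⟩
  have hc1 : c ≠ 1 := by
    intro h
    apply hy
    have := congrArg Subtype.val h
    rw [hc, hlam] at this
    exact this
  have hgen : ∀ d : commutator G, d ∈ Subgroup.zpowers c := by
    intro d
    rw [zpowers_eq_top_of_prime_card hD hc1]
    exact Subgroup.mem_top d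
  have hordc : orderOf c = p := by
    rw [orderOf_eq_card_of_forall_mem_zpowers hgen, hD]
  let T : Subgroup G :=
    { carrier := {w | w ∈ Subgroup.center G ∧ w ^ p = 1}
      one_mem' := ⟨Subgroup.one_mem _, one_pow _⟩
      mul_mem' := fun {a b} ha hb => ⟨Subgroup.mul_mem _ ha.1 hb.1, by
        have hcomm : Commute a b := (Subgroup.mem_center_iff.mp hb.1) a
        rw [hcomm.mul_pow, ha.2, hb.2, one_mul]⟩
      inv_mem' := fun {a} ha => ⟨Subgroup.inv_mem _ ha.1, by rw [inv_pow, ha.2, inv_one]⟩ }
  have hTmem : ∀ w : G, w ∈ T ↔ (w ∈ Subgroup.center G ∧ w ^ p = 1) := fun w => Iff.rfl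
  have haut : ∀ w ∈ T, ∃ φ : MulAut G, φ g = g * w := by
    intro w hw
    rw [hTmem] at hw
    have hord : orderOf w ∣ orderOf c := by
      rw [hordc]; exact orderOf_dvd_of_pow_eq_one hw.2
    obtain ⟨θ, hθ⟩ : ∃ θ : commutator G →* G, θ c = w :=
      ⟨monoidHomOfForallMemZpowers hgen hord, monoidHomOfForallMemZpowers_apply_gen hgen hord⟩
    have hθZ : ∀ d, θ d ∈ Subgroup.center G := by
      intro d
      obtain ⟨k, rfl⟩ := Subgroup.mem_zpowers_iff.mp (hgen d)
      rw [map_zpow, hθ]; exact Subgroup.zpow_mem _ hw.1 k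
    let f : G →* G :=
      { toFun := fun x => x * θ (lam x)
        map_one' := by simp
        map_mul' := fun x x' => by
          show x * x' * θ (lam (x * x')) = x * θ (lam x) * (x' * θ (lam x'))
          rw [map_mul, map_mul]
          have h1 : x' * θ (lam x) = θ (lam x) * x' :=
            Subgroup.mem_center_iff.mp (hθZ (lam x)) x'
          calc x * x' * (θ (lam x) * θ (lam x')) = x * (x' * θ (lam x)) * θ (lam x') := by group
            _ = x * (θ (lam x) * x') * θ (lam x') := by rw [h1]
            _ = x * θ (lam x) * (x' * θ (lam x')) := by group }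
    have hf : ∀ x : G, f x = x * θ (lam x) := fun x => rfl
    have hinj : Function.Injective f := by
      rw [injective_iff_map_eq_one]
      intro x hx
      rw [hf] at hx
      have hxZ : x ∈ Subgroup.center G := by
        have : x = (θ (lam x))⁻¹ := eq_inv_of_mul_eq_one_left hx
        rw [this]; exact Subgroup.inv_mem _ (hθZ _)
      have hl : lam x = 1 := by
        apply Subtype.ext
        rw [hlam]
        show ⁅x, y⁆ = 1
        rw [commutatorElement_eq_one_iff_commute]
        exact ((Subgroup.mem_center_iff.mp hxZ) y).symm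
      rw [hl, map_one, mul_one] at hx
      exact hx
    have hbij : Function.Bijective f := Finite.injective_iff_bijective.mp hinj
    refine ⟨MulEquiv.ofBijective f hbij, ?_⟩
    show f g = g * w
    rw [hf, ← hc, hθ]
  have hTp : IsPGroup p T := by
    rintro ⟨t, ht⟩
    refine ⟨1, ?_⟩
    apply Subtype.ext
    rw [hTmem] at ht
    simp [ht.2]
  obtain ⟨n, hn⟩ := IsPGroup.iff_card.mp hTp
  have hDT : commutator G ≤ T := by
    intro d hd
    rw [hTmem]
    refine ⟨hDZ hd, ?_⟩
    have h1 : (⟨d, hd⟩ : commutator G) ^ Nat.card (commutator G) = 1 := pow_card_eq_one'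
    rw [hD] at h1
    have := congrArg Subtype.val h1
    simpa using this
  have heT : e ∈ T := (hTmem e).mpr ⟨heZ, hep⟩
  have hn2 : 2 ≤ n := by
    by_contra hlt
    push_neg at hlt
    have hle : Nat.card T ≤ Nat.card (commutator G) := by
      rw [hn, hD]
      calc p ^ n ≤ p ^ 1 := Nat.pow_le_pow_right hp.pos (by omega)
        _ = p := pow_one p
    have := Subgroup.eq_of_le_of_card_ge hDT hle
    exact heD (this ▸ heT)
  have hTcard : p ^ 2 ≤ Nat.card T := by
    rw [hn]; exact Nat.pow_le_pow_right hp.pos hn2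
  have hmem : ∀ w : T, g * (w : G) ∈ MulAction.orbit (MulAut G) g := by
    intro w
    obtain ⟨φ, hφ⟩ := haut w w.2
    exact MulAction.mem_orbit_iff.mpr ⟨φ, by rw [MulAut.smul_def, hφ]⟩
  let F : T → MulAction.orbit (MulAut G) g := fun w => ⟨g * (w : G), hmem w⟩
  have hF : Function.Injective F := by
    intro w w' h
    have h' : g * (w : G) = g * (w' : G) := congrArg Subtype.val h
    exact Subtype.ext (mul_left_cancel h')
  calc p ^ 2 ≤ Nat.card T := hTcard
    _ ≤ Nat.card (MulAction.orbit (MulAut G) g) := Nat.card_le_card_of_injective F hF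

end Cfsg.Agent.Lib.helper26.AutOrbA
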