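import Mathlib

set_option autoImplicit false

namespace Cfsg.Agent.Lib.helper26

/-- Coprime action on an abelian `p`-group: the group is the product of the fixed points and the commutator
subgroup, and they meet trivially. -/
theorem coprime_abelian_decomp {G : Type*} [Group G] [Finite G] (hcomm : ∀ a b : G, a * b = b * a)
    {p : ℕ} [Fact p.Prime] (hG : IsPGroup p G) (A : Subgroup (MulAut G)) [Finite A]
    (hA : ¬ p ∣ Nat.card A) :
    (∀ x : G, ∃ c k : G, (∀ α ∈ A, α c = c) ∧
      k ∈ Subgroup.closure {y : G | ∃ (x : G) (α : MulAut G), α ∈ A ∧ y = x⁻¹ * α x} ∧ x = c * k) ∧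
    (∀ x : G, (∀ α ∈ A, α x = x) →
      x ∈ Subgroup.closure {y : G | ∃ (x : G) (α : MulAut G), α ∈ A ∧ y = x⁻¹ * α x} → x = 1) := by
  classical
  let _ : CommGroup G := { (inferInstance : Group G) with mul_comm := hcomm }
  have : Fintype A := Fintype.ofFinite A
  let N : G →* G := ∏ α : A, ((α : MulAut G).toMonoidHom)
  have hN : ∀ x, N x = ∏ α : A, (α : MulAut G) x := by
    intro x
    simp [N, MonoidHom.finsetProd_apply]
  have hm : Fintype.card A = Nat.card A := Nat.card_eq_fintype_card.symm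
  have hNreindexR : ∀ (β : A) (x : G), N ((β : MulAut G) x) = N x := by
    intro β x
    rw [hN, hN]
    exact Fintype.prod_equiv (Equiv.mulRight β) _ _ (fun α => rfl)
  have hNfix : ∀ (β : A) (x : G), (β : MulAut G) (N x) = N x := by
    intro β x
    rw [hN, map_prod]
    exact Fintype.prod_equiv (Equiv.mulLeft β) _ _ (fun α => rfl)
  have hNK : ∀ y ∈ Subgroup.closure {y : G | ∃ (x : G) (α : MulAut G), α ∈ A ∧ y = x⁻¹ * α x},
      N y = 1 := by
    intro y hy
    have : Subgroup.closure {y : G | ∃ (x : G) (α : MulAut G), α ∈ A ∧ y = x⁻¹ * α x} ≤ N.ker := by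
      rw [Subgroup.closure_le]
      rintro _ ⟨x, α, hα, rfl⟩
      show N (x⁻¹ * α x) = 1
      rw [map_mul, map_inv, hNreindexR ⟨α, hα⟩ x, inv_mul_cancel]
    exact this hy
  have hpow : ∀ x : G, ∃ k ∈ Subgroup.closure {y : G | ∃ (x : G) (α : MulAut G), α ∈ A ∧ y = x⁻¹ * α x},
      x ^ Nat.card A = N x * k := by
    intro x
    refine ⟨∏ α : A, ((α : MulAut G) x)⁻¹ * x, ?_, ?_⟩
    · apply Subgroup.prod_mem
      intro α _
      have : ((α : MulAut G) x)⁻¹ * x = (x⁻¹ * (α : MulAut G) x)⁻¹ := by group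
      rw [this]
      exact Subgroup.inv_mem _ (Subgroup.subset_closure ⟨x, α, α.2, rfl⟩)
    · rw [hN, ← Finset.prod_mul_distrib]
      have h3 : ∀ α : A, (α : MulAut G) x * (((α : MulAut G) x)⁻¹ * x) = x :=
        fun α => mul_inv_cancel_left _ _
      rw [Finset.prod_congr rfl (fun (α : A) _ => h3 α), Finset.prod_const, Finset.card_univ, hm]
  constructor
  · intro x
    obtain ⟨k, hk, hxk⟩ := hpow x
    have hcop : (Nat.card A).Coprime (orderOf x) :=
      (hG.orderOf_coprime (n := Nat.card A) ((Nat.Prime.coprime_iff_not_dvd Fact.out).2 hA) x).symm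
    obtain ⟨j, hj⟩ := exists_pow_eq_self_of_coprime hcop
    refine ⟨(N x) ^ j, k ^ j, ?_, Subgroup.pow_mem _ hk j, ?_⟩
    · intro α hα
      rw [map_pow, hNfix ⟨α, hα⟩ x]
    · rw [← mul_pow, ← hxk, hj]
  · intro x hfix hxK
    have h1 : N x = x ^ Nat.card A := by
      rw [hN, Finset.prod_congr rfl (fun (α : A) _ => hfix (α : MulAut G) α.2), Finset.prod_const,
        Finset.card_univ, hm]
    rw [hNK x hxK] at h1
    have hcop : (orderOf x).Coprime (Nat.card A) :=
      hG.orderOf_coprime ((Nat.Prime.coprime_iff_not_dvd Fact.out).2 hA) x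
    have hdvd : orderOf x ∣ Nat.card A := orderOf_dvd_of_pow_eq_one h1.symm
    have h2 : orderOf x ∣ 1 := by
      rw [← Nat.Coprime.gcd_eq_one hcop]; exact Nat.dvd_gcd dvd_rfl hdvd
    exact orderOf_eq_one_iff.1 (Nat.dvd_one.1 h2)

end Cfsg.Agent.Lib.helper26
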