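import Mathlib
import Cfsg.Prelude.Def_CaseTheorems
import Cfsg.Agent.Lib.helper26.S1454X3r

set_option autoImplicit false

namespace Cfsg.Agent.Lib.helper26.S1454NA

open scoped commutatorElement

/-- `PRankLE p 2 ↥R` in relative form. -/
theorem rank_rel {G : Type*} [Group G] (p : ℕ) (R : Subgroup G) (hr : Cfsg.PRankLE p 2 R) :
    ∀ B : Subgroup G, B ≤ R → (∀ x ∈ B, ∀ y ∈ B, x * y = y * x) → (∀ x ∈ B, x ^ p = 1) →
      Nat.card B ≤ p ^ 2 := by
  intro B hBR hBc hBe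
  have h1 := hr (B.subgroupOf R)
    ⟨⟨fun a b => Subtype.ext (Subtype.ext (hBc a.1.1 (Subgroup.mem_subgroupOf.mp a.2) b.1.1
      (Subgroup.mem_subgroupOf.mp b.2)))⟩⟩
    (fun a ha => Subtype.ext (hBe a.1 (Subgroup.mem_subgroupOf.mp ha)))
  rwa [Nat.card_congr (Subgroup.subgroupOfEquivOfLe hBR).toEquiv] at h1

/-- Elements of a group of prime order `q ∤ p (p - 1)` have order prime to `p (p - 1)`. -/
theorem coprime_of_mem {G : Type*} [Group G] [Finite G] (p : ℕ) (A : Subgroup G)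
    (hq : (Nat.card A).Prime) (hqp : ¬ Nat.card A ∣ p * (p - 1)) :
    ∀ a ∈ A, (orderOf a).Coprime (p * (p - 1)) := by
  intro a ha
  have h1 : orderOf a ∣ Nat.card A := by
    have := orderOf_dvd_natCard (⟨a, ha⟩ : A)
    rwa [Subgroup.orderOf_mk] at this
  rcases (Nat.dvd_prime hq).mp h1 with h | h
  · rw [h]; exact Nat.coprime_one_left _
  · rw [h]; exact (Nat.Prime.coprime_iff_not_dvd hq).mpr hqp

/-- If `R = D * C_R(D)` and `A` normalises `D` and centralises `C_R(D)`, then `⁅R, A⁆ ≤ D`. -/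
theorem comm_le_of_prod {G : Type*} [Group G] (R D A : Subgroup G)
    (hAD : A ≤ Subgroup.normalizer (D : Set G))
    (hprod : ∀ r ∈ R, ∃ d ∈ D, ∃ c ∈ R ⊓ Subgroup.centralizer (D : Set G), r = d * c)
    (hc : ∀ a ∈ A, ∀ c ∈ R ⊓ Subgroup.centralizer (D : Set G), a * c = c * a) : ⁅R, A⁆ ≤ D := by
  rw [Subgroup.commutator_le]
  intro r hr a ha
  obtain ⟨d, hd, c, hc', rfl⟩ := hprod r hr
  have h1 : ⁅d * c, a⁆ = d * (a * d⁻¹ * a⁻¹) := by
    rw [commutatorElement_def]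
    have hca := hc a ha c hc'
    calc d * c * a * (d * c)⁻¹ * a⁻¹ = d * (c * a) * c⁻¹ * d⁻¹ * a⁻¹ := by group
      _ = d * (a * c) * c⁻¹ * d⁻¹ * a⁻¹ := by rw [hca]
      _ = d * (a * d⁻¹ * a⁻¹) := by group
  rw [h1]
  exact D.mul_mem hd
    (((Cfsg.Agent.Lib.helper26.S1454X3r.normalizer_iff' D a).mp (hAD ha) d⁻¹).mp (D.inv_mem hd))

/-- The non-abelian case of S1454 (3b), given the conclusions of (X1) and (X2). -/
theorem nonabelian_case {G : Type*} [Group G] [Finite G] (p : ℕ) [Fact p.Prime] (hp : p ≠ 2)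
    (R A D : Subgroup G) (hR : IsPGroup p R) (hr : Cfsg.PRankLE p 2 R)
    (hA : A ≤ Subgroup.normalizer (R : Set G)) (hq : (Nat.card A).Prime)
    (hqp : ¬ Nat.card A ∣ p * (p - 1)) (hRA : ⁅R, A⁆ = R) (hDR : D ≤ R)
    (hexp : ∀ d ∈ D, d ^ p = 1)
    (hND : Subgroup.normalizer (R : Set G) ≤ Subgroup.normalizer (D : Set G))
    (hD3 : Nat.card D = p ^ 3) (hZ : Nat.card ↥(D ⊓ Subgroup.centralizer (D : Set G)) = p)
    (hprod : ∀ r ∈ R, ∃ d ∈ D, ∃ c ∈ R ⊓ Subgroup.centralizer (D : Set G), r = d * c) :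
    Nat.card R = p ^ 3 := by
  have hrel := rank_rel p R hr
  have hcop := coprime_of_mem p A hq hqp
  have hc : ∀ a ∈ A, ∀ c ∈ R ⊓ Subgroup.centralizer (D : Set G), a * c = c * a := fun a ha =>
    Cfsg.Agent.Lib.helper26.S1454X3r.cent_centralizer_rel p hp R D hR hDR hrel hexp hD3 hZ a
      (hA ha) (hND (hA ha)) (hcop a ha)
  have hle : ⁅R, A⁆ ≤ D := comm_le_of_prod R D A (hA.trans hND) hprod hc
  rw [hRA] at hle
  have hRD : R = D := le_antisymm hle hDR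
  rw [hRD]
  exact hD3

end Cfsg.Agent.Lib.helper26.S1454NA
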