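import Mathlib
import Cfsg.Agent.Lib.helper26.Realize
import Cfsg.Agent.Lib.helper26.Closed
import Cfsg.Agent.Lib.helper26.Abelian

set_option autoImplicit false
set_option linter.style.haveILetI false

namespace Cfsg.Agent.Lib.helper26

open Cfsg Cfsg.FusionSystem

section chain

variable {Ω : Type*} [Group Ω]

/-- Chains of `good` subgroups with cyclic steps. -/
inductive Ch (good : Subgroup Ω → Prop) (S : Subgroup Ω) : Subgroup Ω → Subgroup Ω → Prop
  | refl (X : Subgroup Ω) : good X → Ch good S X X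
  | cons (X Y Z : Subgroup Ω) : good X → X ≤ Y → (∃ x ∈ S, Y = X ⊔ Subgroup.zpowers x) →
      Ch good S Y Z → Ch good S X Z

theorem Ch.trans {good : Subgroup Ω → Prop} {S X Y Z : Subgroup Ω} (h1 : Ch good S X Y)
    (h2 : Ch good S Y Z) : Ch good S X Z := by
  induction h1 with
  | refl X _ => exact h2
  | cons X Y' Z' hX hle hx _ ih => exact Ch.cons X Y' Z hX hle hx (ih h2)

theorem Ch.toFin {good : Subgroup Ω → Prop} {S X Z : Subgroup Ω} (h : Ch good S X Z) :
    ∃ (m : ℕ) (c : Fin (m + 1) → Subgroup Ω), c 0 = X ∧ c (Fin.last m) = Z ∧ (∀ i, good (c i)) ∧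
      ∀ i : Fin m, c i.castSucc ≤ c i.succ ∧
        ∃ x ∈ S, c i.succ = c i.castSucc ⊔ Subgroup.zpowers x := by
  induction h with
  | refl X hX => exact ⟨0, fun _ => X, rfl, rfl, fun _ => hX, fun i => i.elim0⟩
  | cons X Y Z hX hle hx _ ih =>
    obtain ⟨m, c, h0, hl, hg, hs⟩ := ih
    refine ⟨m + 1, (Fin.cons X c : Fin (m + 1 + 1) → Subgroup Ω), rfl, ?_, ?_, ?_⟩
    · rw [← Fin.succ_last, Fin.cons_succ]; exact hl
    · intro i
      refine Fin.cases ?_ (fun j => ?_) i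
      · exact hX
      · rw [Fin.cons_succ]; exact hg j
    · intro i
      refine Fin.cases ?_ (fun j => ?_) i
      · rw [Fin.castSucc_zero, Fin.cons_zero, Fin.cons_succ, h0]
        exact ⟨hle, hx⟩
      · rw [← Fin.succ_castSucc, Fin.cons_succ, Fin.cons_succ]
        exact hs j

end chain

section pw

variable {Ω : Type*} [Group Ω] {S : Subgroup Ω}

/-- number theory: `a^m ≡ 1 mod p^k` with `m` prime to `p` gives `a^(p-1) ≡ 1 mod p^k`. -/
theorem pow_pred_dvd {p : ℕ} (hp : p.Prime) {m k : ℕ} (hcop : m.Coprime p) {a : ℤ}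
    (h : ((p : ℤ) ^ k) ∣ a ^ m - 1) : ((p : ℤ) ^ k) ∣ a ^ (p - 1) - 1 := by
  rcases Nat.eq_zero_or_pos k with rfl | hk
  · simp
  haveI : NeZero (p ^ k) := ⟨pow_ne_zero k hp.ne_zero⟩
  have h1 : ((a : ZMod (p ^ k)) ^ m = 1) := by
    have h' : ((p ^ k : ℕ) : ℤ) ∣ a ^ m - 1 := by exact_mod_cast h
    have := (ZMod.intCast_zmod_eq_zero_iff_dvd (a ^ m - 1) (p ^ k)).2 h'
    push_cast at this
    exact sub_eq_zero.1 this
  have hm0 : m ≠ 0 := by
    rintro rfl
    rw [Nat.coprime_zero_left] at hcop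
    exact hp.one_lt.ne' hcop
  have hu : IsUnit (a : ZMod (p ^ k)) := IsUnit.of_pow_eq_one h1 hm0
  obtain ⟨u, hu⟩ := hu
  have hum : u ^ m = 1 := by
    apply Units.ext
    rw [Units.val_pow_eq_pow_val, hu, h1]; rfl
  have hut : u ^ (p ^ (k - 1) * (p - 1)) = 1 := by
    have := ZMod.pow_totient u
    rwa [Nat.totient_prime_pow hp hk] at this
  have hd1 : orderOf u ∣ m := orderOf_dvd_of_pow_eq_one hum
  have hd2 : orderOf u ∣ p ^ (k - 1) * (p - 1) := orderOf_dvd_of_pow_eq_one hut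
  have hc : (orderOf u).Coprime (p ^ (k - 1)) :=
    Nat.Coprime.pow_right _ (Nat.Coprime.coprime_dvd_left hd1 hcop)
  have hd3 : orderOf u ∣ p - 1 := hc.dvd_of_dvd_mul_left hd2
  have hup : u ^ (p - 1) = 1 := orderOf_dvd_iff_pow_eq_one.1 hd3
  have h2 : (a : ZMod (p ^ k)) ^ (p - 1) = 1 := by
    rw [← hu, ← Units.val_pow_eq_pow_val, hup]; rfl
  have h3 : ((a ^ (p - 1) - 1 : ℤ) : ZMod (p ^ k)) = 0 := by
    push_cast
    rw [h2, sub_self]
  have := (ZMod.intCast_zmod_eq_zero_iff_dvd _ _).1 h3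
  exact_mod_cast this

/-- An automorphism of `p'`-order acting on a cyclic factor `T'/T` acts there as a power map of order
dividing `p - 1`. -/
theorem pw_core [Finite S] {p : ℕ} [Fact p.Prime] (hS : IsPGroup p S) {T T' : Subgroup Ω}
    (hTn : ∀ s ∈ S, ∀ t ∈ T, s * t * s⁻¹ ∈ T) {x : Ω} (hx : x ∈ S)
    (hT' : T' = T ⊔ Subgroup.zpowers x) (h : MulAut S)
    (hinvT : ∀ y : S, (y : Ω) ∈ T → ((h y : S) : Ω) ∈ T)
    (hinvT' : ∀ y : S, (y : Ω) ∈ T' → ((h y : S) : Ω) ∈ T')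
    {m : ℕ} (hm : h ^ m = 1) (hcop : m.Coprime p) :
    ∀ y : S, (y : Ω) ∈ T' → (((h ^ (p - 1)) y : S) : Ω) * (y : Ω)⁻¹ ∈ T := by
  have hp : p.Prime := Fact.out
  haveI hN : (T.subgroupOf S).Normal := by
    refine ⟨fun n hn g => ?_⟩
    rw [Subgroup.mem_subgroupOf] at hn ⊢
    have := hTn g g.2 n hn
    simpa using this
  obtain ⟨π, hπ⟩ : ∃ π : S →* S ⧸ T.subgroupOf S, π = QuotientGroup.mk' (T.subgroupOf S) :=
    ⟨_, rfl⟩
  have hker : ∀ y : S, π y = 1 ↔ (y : Ω) ∈ T := by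
    intro y
    rw [hπ, QuotientGroup.mk'_apply, QuotientGroup.eq_one_iff, Subgroup.mem_subgroupOf]
  obtain ⟨xb, hxb⟩ : ∃ xb : S ⧸ T.subgroupOf S, xb = π ⟨x, hx⟩ := ⟨_, rfl⟩
  have hxT' : x ∈ T' := by
    rw [hT']; exact (le_sup_right : Subgroup.zpowers x ≤ _) (Subgroup.mem_zpowers x)
  -- (a)
  have ha : ∀ y : S, (y : Ω) ∈ T' → ∃ j : ℤ, π y = xb ^ j := by
    intro y hy
    rw [hT'] at hy
    have hnz : ∀ k ∈ Subgroup.zpowers x, ∀ t ∈ T, k * t * k⁻¹ ∈ T := by
      intro k hk t ht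
      exact hTn k ((Subgroup.zpowers_le.2 hx) hk) t ht
    obtain ⟨t, ht, k, hk, hy'⟩ := mem_sup_of_normalizes hnz hy
    obtain ⟨j, rfl⟩ := Subgroup.mem_zpowers_iff.1 hk
    refine ⟨j, ?_⟩
    have htS : t ∈ S := by
      have : t = (y : Ω) * (x ^ j)⁻¹ := by rw [hy']; group
      rw [this]
      exact S.mul_mem y.2 (S.inv_mem (S.zpow_mem hx j))
    have e : y = (⟨t, htS⟩ : S) * (⟨x, hx⟩ : S) ^ j := by
      apply Subtype.ext
      rw [Subgroup.coe_mul, Subgroup.coe_zpow]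
      exact hy'
    rw [e, map_mul, map_zpow, (hker ⟨t, htS⟩).2 ht, one_mul, hxb]
  -- (b)
  obtain ⟨a, hxa⟩ := ha (h ⟨x, hx⟩) (hinvT' ⟨x, hx⟩ hxT')
  -- (c)
  have hc : ∀ (y : S) (j : ℤ), π y = xb ^ j → π (h y) = xb ^ (j * a) := by
    intro y j hy
    have ht : π (y * (⟨x, hx⟩ : S) ^ (-j)) = 1 := by
      rw [map_mul, map_zpow, hy, ← hxb, ← zpow_add, add_neg_cancel, zpow_zero]
    have ht' : π (h (y * (⟨x, hx⟩ : S) ^ (-j))) = 1 := (hker _).2 (hinvT _ ((hker _).1 ht))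
    have e : y = (y * (⟨x, hx⟩ : S) ^ (-j)) * (⟨x, hx⟩ : S) ^ j := by group
    have e2 : h y = h (y * (⟨x, hx⟩ : S) ^ (-j)) * (h ⟨x, hx⟩) ^ j := by
      conv_lhs => rw [e]
      rw [map_mul, map_zpow]
    rw [e2, map_mul, ht', one_mul, map_zpow, hxa, ← zpow_mul, mul_comm]
  -- (d)
  have hd : ∀ (r : ℕ) (y : S) (j : ℤ), π y = xb ^ j → π ((h ^ r) y) = xb ^ (j * a ^ r) := by
    intro r
    induction r with
    | zero => intro y j hy; simpa using hy
    | succ r ih =>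
      intro y j hy
      rw [pow_succ', MulAut.mul_apply, hc _ _ (ih y j hy), pow_succ, mul_assoc]
  -- (e)
  have he : xb ^ (a ^ m - 1) = 1 := by
    have h1 := hd m ⟨x, hx⟩ 1 (by rw [zpow_one, hxb])
    rw [hm, one_mul] at h1
    have h2 : π ⟨x, hx⟩ = xb ^ (a ^ m) := h1
    rw [zpow_sub, zpow_one, ← h2, hxb, mul_inv_cancel]
  -- (g)
  have hQ : IsPGroup p (S ⧸ T.subgroupOf S) := hS.to_quotient _
  obtain ⟨k0, hk0⟩ := hQ xb
  obtain ⟨k, -, hk⟩ := (Nat.dvd_prime_pow hp).1 (orderOf_dvd_of_pow_eq_one hk0)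
  have hdvd : ((p : ℤ) ^ k) ∣ a ^ m - 1 := by
    have := orderOf_dvd_iff_zpow_eq_one.2 he
    rw [hk] at this
    exact_mod_cast this
  have hdvd' := pow_pred_dvd hp hcop hdvd
  have he' : xb ^ (a ^ (p - 1) - 1) = 1 := by
    apply orderOf_dvd_iff_zpow_eq_one.1
    rw [hk]
    exact_mod_cast hdvd'
  have he'' : xb ^ (a ^ (p - 1)) = xb := by
    have : xb ^ (a ^ (p - 1)) = xb ^ (a ^ (p - 1) - 1) * xb := by
      rw [← zpow_add_one, sub_add_cancel]
    rw [this, he', one_mul]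
  -- (i)
  intro y hy
  obtain ⟨j, hj⟩ := ha y hy
  have h1 := hd (p - 1) y j hj
  have h2 : π ((h ^ (p - 1)) y) = π y := by
    rw [h1, hj, mul_comm, zpow_mul, he'']
  have h3 : π ((h ^ (p - 1)) y * y⁻¹) = 1 := by
    rw [map_mul, map_inv, h2, mul_inv_cancel]
  have h4 := (hker _).1 h3
  simpa using h4

/-- An automorphism of `p'`-order acting trivially on all factors of a chain from `1` to `S` is trivial. -/
theorem stab_trivial [Finite S] {p : ℕ} [Fact p.Prime] (hS : IsPGroup p S)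
    {m₀ : ℕ} (c : Fin (m₀ + 1) → Subgroup Ω) (h0 : c 0 = ⊥) (hl : c (Fin.last m₀) = S)
    (k : MulAut S) {m : ℕ} (hm : k ^ m = 1) (hcop : m.Coprime p)
    (hk : ∀ i : Fin m₀, ∀ y : S, (y : Ω) ∈ c i.succ →
      ((k y : S) : Ω) * (y : Ω)⁻¹ ∈ c i.castSucc) :
    k = 1 := by
  have key : ∀ i : Fin (m₀ + 1), ∀ y : S, (y : Ω) ∈ c i → k y = y := by
    intro i
    induction i using Fin.induction with
    | zero =>
      intro y hy
      rw [h0, Subgroup.mem_bot] at hy
      have : y = 1 := Subtype.ext hy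
      rw [this, map_one]
    | succ i ih =>
      intro y hy
      obtain ⟨z, hz⟩ : ∃ z : S, z = k y * y⁻¹ := ⟨_, rfl⟩
      have hzc : (z : Ω) ∈ c i.castSucc := by
        rw [hz]
        have := hk i y hy
        simpa using this
      have hkz : k z = z := ih z hzc
      have hkz' : ∀ r : ℕ, (k ^ r) z = z := by
        intro r
        induction r with
        | zero => rfl
        | succ r ih => rw [pow_succ, MulAut.mul_apply, hkz, ih]
      have hky : k y = z * y := by rw [hz]; group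
      have hr : ∀ r : ℕ, (k ^ r) y = z ^ r * y := by
        intro r
        induction r with
        | zero => simp
        | succ r ih =>
          rw [pow_succ, MulAut.mul_apply, hky, map_mul, hkz', ih, pow_succ']
          group
      have h1 := hr m
      rw [hm] at h1
      have h2 : z ^ m = 1 := by
        have : y = z ^ m * y := h1
        calc z ^ m = (z ^ m * y) * y⁻¹ := by group
          _ = 1 := by rw [← this, mul_inv_cancel]
      obtain ⟨e, he⟩ := hS z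
      have h3 : z = 1 := eq_one_of_pow_coprime h2 he (Nat.Coprime.pow_right e hcop)
      rw [hky, h3, one_mul]
  apply MulEquiv.ext
  intro y
  exact key (Fin.last m₀) y (by rw [hl]; exact y.2)

/-- In a system with a supersoluble chain, every automorphism of `S` in the system of order prime to `p` has
order dividing `p - 1`. -/
theorem pw_of_chain [Finite S] {p : ℕ} [Fact p.Prime] (hS : IsPGroup p S) (F : FusionSystem S)
    {m₀ : ℕ} (c : Fin (m₀ + 1) → Subgroup Ω) (h0 : c 0 = ⊥) (hl : c (Fin.last m₀) = S)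
    (hsc : ∀ i, F.StronglyClosed (c i))
    (hstep : ∀ i : Fin m₀, c i.castSucc ≤ c i.succ ∧
      ∃ x ∈ S, c i.succ = c i.castSucc ⊔ Subgroup.zpowers x)
    (h : MulAut S) (hF : S.subtype.comp h.toMonoidHom ∈ F.Hom S) {m : ℕ} (hm : h ^ m = 1)
    (hcop : m.Coprime p) : h ^ (p - 1) = 1 := by
  have hm' : (h ^ (p - 1)) ^ m = 1 := by
    rw [← pow_mul, mul_comm, pow_mul, hm, one_pow]
  refine stab_trivial hS c h0 hl (h ^ (p - 1)) hm' hcop ?_
  intro i y hy
  obtain ⟨-, x, hx, hxe⟩ := hstep i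
  exact pw_core hS (fun s hs t ht => stronglyClosed_conj_mem F (hsc i.castSucc) hs ht) hx hxe h
    (fun y hy => stronglyClosed_aut_mem F (hsc i.castSucc) hF hy)
    (fun y hy => stronglyClosed_aut_mem F (hsc i.succ) hF hy) hm hcop y hy

end pw

section semi

variable {Ω : Type*} [Group Ω] {S : Subgroup Ω}

/-- The fusion system of `S ⋊ Z` on `S`, for a group `Z` of automorphisms of `S` of order prime to `p`. -/
theorem semi_system [Finite S] {p : ℕ} [Fact p.Prime] (hS : IsPGroup p S)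
    (Z : Subgroup (MulAut S)) (hZ : (Nat.card Z).Coprime p) :
    ∃ E : FusionSystem S, E.IsSaturated p ∧
      (∀ z ∈ Z, S.subtype.comp (z : MulAut S).toMonoidHom ∈ E.Hom S) ∧
      (∀ (P : Subgroup Ω) (φ : P →* Ω), φ ∈ E.Hom P → ∃ (hP : P ≤ S), ∃ t ∈ S,
        ∃ z ∈ Z, ∀ x : P, φ x = t * ((z ⟨x, hP x.2⟩ : S) : Ω) * t⁻¹) := by
  have hp := (Fact.out : p.Prime)
  haveI : Finite (S ⋊[Z.subtype] Z) := Finite.of_equiv _ SemidirectProduct.equivProd.symm
  obtain ⟨ι, hιdef⟩ : ∃ ι : S →* S ⋊[Z.subtype] Z, ι = SemidirectProduct.inl := ⟨_, rfl⟩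
  have hι : Function.Injective ι := by rw [hιdef]; exact SemidirectProduct.inl_injective
  have key : ∀ (g : S ⋊[Z.subtype] Z) (x : S),
      g * ι x * g⁻¹ = ι (g.left * (g.right : MulAut S) x * g.left⁻¹) := by
    intro g x
    rw [hιdef]
    conv_lhs => rw [← SemidirectProduct.inl_left_mul_inr_right g]
    rw [map_mul, map_mul, map_inv]
    have h1 := SemidirectProduct.inl_aut (φ := Z.subtype) g.right x
    have h2 : (SemidirectProduct.inl ((g.right : MulAut S) x) : S ⋊[Z.subtype] Z)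
        = SemidirectProduct.inr g.right * SemidirectProduct.inl x
          * SemidirectProduct.inr g.right⁻¹ := h1
    rw [h2, map_inv]
    group
  have hchar : ∀ (P : Subgroup Ω) (φ : P →* Ω), φ ∈ (realizedSystem ι hι).Hom P →
      ∃ (hP : P ≤ S), ∃ t ∈ S, ∃ z ∈ Z,
        ∀ x : P, φ x = t * ((z ⟨x, hP x.2⟩ : S) : Ω) * t⁻¹ := by
    rintro P φ ⟨hP, hφ, g, hg⟩
    refine ⟨hP, (g.left : Ω), g.left.2, (g.right : MulAut S), g.right.2, fun x => ?_⟩
    have h1 := hg x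
    rw [key] at h1
    have h2 := hι h1
    exact congrArg Subtype.val h2
  have hcard : Nat.card (S ⋊[Z.subtype] Z) = Nat.card S * Nat.card Z := SemidirectProduct.card
  have hrp : IsPGroup p ι.range := by
    have e : S ≃* ι.range := MonoidHom.ofInjective hι
    exact hS.of_equiv e
  obtain ⟨Q, hQ⟩ := hrp.exists_le_sylow
  have hQeq : (Q : Subgroup (S ⋊[Z.subtype] Z)) = ι.range := by
    symm
    apply Subgroup.eq_of_le_of_card_ge hQ
    have h1 : Nat.card (Q : Subgroup (S ⋊[Z.subtype] Z)) ∣ Nat.card S * Nat.card Z :=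
      hcard ▸ Subgroup.card_subgroup_dvd_card _
    obtain ⟨n, hn⟩ := (IsPGroup.iff_card).1 Q.isPGroup'
    have h2 : (Nat.card (Q : Subgroup (S ⋊[Z.subtype] Z))).Coprime (Nat.card Z) := by
      rw [hn]
      exact Nat.Coprime.pow_left n hZ.symm
    have h3 : Nat.card (Q : Subgroup (S ⋊[Z.subtype] Z)) ∣ Nat.card S :=
      h2.dvd_of_dvd_mul_right h1
    have h4 : Nat.card ι.range = Nat.card S :=
      (Nat.card_congr (MonoidHom.ofInjective hι).toEquiv).symm
    rw [h4]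
    exact Nat.le_of_dvd Nat.card_pos h3
  refine ⟨realizedSystem ι hι, ?_, ?_, hchar⟩
  · exact Cfsg.Agent.Lib.helper25.saturated_of_realized _ ι (realizedSystem_isRealizedBy ι hι) Q hQeq
  · intro z hz
    refine ⟨le_rfl, fun x => (z x).2, SemidirectProduct.inr ⟨z, hz⟩, fun x => ?_⟩
    rw [key]
    simp

end semi

end Cfsg.Agent.Lib.helper26
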