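import Mathlib
import Cfsg.Agent.Lib.helper26.TateAux2

/-!
# Burnside-type lemmas for the Tate-style argument (helper26)

* `burnside_quot`: if a Sylow `p`-subgroup `P` of `A` is self-normalizing and `P/I` is abelian
  for a normal subgroup `I ≤ P` of `A`, then `A` has a normal subgroup `K ≥ I` with `A/K` a
  `p`-group and `K/I` a `p'`-group.
* `exists_q_subgroup`: in that situation, if `A` is not a `p`-group, there is a nontrivial
  `q`-subgroup `H` (`q ≠ p`) with `P = I · N_P(H)`.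
-/

namespace Cfsg.Agent.Lib.helper26

theorem burnside_quot {A : Type*} [Group A] [Finite A] {p : ℕ} [Fact p.Prime] (P : Sylow p A)
    (I : Subgroup A) [hI : I.Normal] (hIP : I ≤ (P : Subgroup A))
    (hab : ∀ x ∈ (P : Subgroup A), ∀ y ∈ (P : Subgroup A), x * y * x⁻¹ * y⁻¹ ∈ I)
    (hnorm : Subgroup.normalizer ((P : Subgroup A) : Set A) ≤ P) :
    ∃ K : Subgroup A, K.Normal ∧ I ≤ K ∧ (∀ a : A, ∃ j : ℕ, a ^ p ^ j ∈ K) ∧
      (∀ x ∈ K, ∀ j : ℕ, x ^ p ^ j = 1 → x ∈ I) := by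
  classical
  let π : A →* A ⧸ I := QuotientGroup.mk' I
  have hπ : Function.Surjective π := QuotientGroup.mk'_surjective I
  let PO : Sylow p (A ⧸ I) := P.mapSurjective hπ
  have hPO : ∀ y : A ⧸ I, y ∈ (PO : Subgroup (A ⧸ I)) ↔ ∃ x ∈ (P : Subgroup A), π x = y :=
    fun y => Subgroup.mem_map
  have hpre : ∀ x : A, π x ∈ (PO : Subgroup (A ⧸ I)) → x ∈ (P : Subgroup A) := by
    intro x hx
    obtain ⟨x', hx', hxx⟩ := (hPO _).1 hx
    have h1 : x'⁻¹ * x ∈ I := QuotientGroup.eq.1 hxx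
    have h2 : x = x' * (x'⁻¹ * x) := by group
    rw [h2]
    exact (P : Subgroup A).mul_mem hx' (hIP h1)
  have hNC : Subgroup.normalizer ((PO : Subgroup (A ⧸ I)) : Set (A ⧸ I))
      ≤ Subgroup.centralizer ((PO : Subgroup (A ⧸ I)) : Set (A ⧸ I)) := by
    intro y hy
    obtain ⟨a, rfl⟩ := hπ y
    have ha : a ∈ Subgroup.normalizer ((P : Subgroup A) : Set A) := by
      rw [Subgroup.mem_normalizer_iff] at hy ⊢
      intro x
      constructor
      · intro hx
        apply hpre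
        have h1 := (hy (π x)).1 ((hPO _).2 ⟨x, hx, rfl⟩)
        rw [map_mul, map_mul, map_inv]
        exact h1
      · intro hx
        apply hpre
        apply (hy (π x)).2
        have h1 := (hPO _).2 ⟨_, hx, rfl⟩
        rw [map_mul, map_mul, map_inv] at h1
        exact h1
    have haP := hnorm ha
    rw [Subgroup.mem_centralizer_iff]
    intro z hz
    obtain ⟨x, hx, rfl⟩ := (hPO _).1 hz
    have h1 := hab a haP x hx
    have h2 : π (a * x * a⁻¹ * x⁻¹) = 1 := (QuotientGroup.eq_one_iff _).2 h1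
    rw [map_mul, map_mul, map_mul, map_inv, map_inv] at h2
    have h3 : π a * π x = π x * π a := by
      calc π a * π x = (π a * π x * (π a)⁻¹ * (π x)⁻¹) * π x * π a := by group
        _ = π x * π a := by rw [h2]; group
    exact h3.symm
  let τ := MonoidHom.transferSylow PO hNC
  refine ⟨τ.ker.comap π, inferInstance, ?_, ?_, ?_⟩
  · intro i hi
    rw [Subgroup.mem_comap, MonoidHom.mem_ker]
    have h1 : π i = 1 := (QuotientGroup.eq_one_iff _).2 hi
    rw [h1, map_one]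
  · intro a
    obtain ⟨j, hj⟩ := PO.2 (τ (π a))
    refine ⟨j, ?_⟩
    rw [Subgroup.mem_comap, MonoidHom.mem_ker, map_pow, map_pow, hj]
  · intro x hx j hj
    rw [Subgroup.mem_comap] at hx
    have h1 : (π x) ^ p ^ j = 1 := by rw [← map_pow, hj, map_one]
    have h2 : (π x) ^ Nat.card τ.ker = 1 := by
      have h := pow_card_eq_one' (G := τ.ker) (x := ⟨π x, hx⟩)
      exact congrArg Subtype.val h
    have hcop : (p ^ j).Coprime (Nat.card τ.ker) :=
      Nat.Coprime.pow_left j ((Nat.Prime.coprime_iff_not_dvd Fact.out).2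
        (MonoidHom.not_dvd_card_ker_transferSylow PO hNC))
    have h3 : π x = 1 := eq_one_of_pow_coprime h1 h2 hcop
    exact (QuotientGroup.eq_one_iff _).1 h3

theorem exists_q_subgroup {A : Type*} [Group A] [Finite A] {p : ℕ} [Fact p.Prime] (P : Sylow p A)
    (I K : Subgroup A) [hI : I.Normal] [hK : K.Normal]
    (hK1 : ∀ a : A, ∃ j : ℕ, a ^ p ^ j ∈ K) (hK2 : ∀ x ∈ K, ∀ j : ℕ, x ^ p ^ j = 1 → x ∈ I)
    (hnp : ¬ IsPGroup p A) :
    ∃ (q : ℕ) (_ : Fact q.Prime) (H : Subgroup A), q ≠ p ∧ IsPGroup q H ∧ H ≠ ⊥ ∧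
      ∀ x ∈ (P : Subgroup A), ∃ i ∈ I, ∃ n ∈ (P : Subgroup A), x = i * n ∧
        n ∈ Subgroup.normalizer (H : Set A) := by
  classical
  obtain ⟨q, hq, hqA, hqp⟩ : ∃ q : ℕ, q.Prime ∧ q ∣ Nat.card A ∧ q ≠ p := by
    by_contra hcon
    push Not at hcon
    apply hnp
    have h1 : Nat.card A = p ^ (Nat.card A).primeFactorsList.length :=
      Nat.eq_prime_pow_of_unique_prime_dvd Nat.card_pos.ne' (fun {m} hm hmd => hcon m hm hmd)
    exact IsPGroup.of_card h1
  haveI : Fact q.Prime := ⟨hq⟩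
  obtain ⟨x, hx⟩ := exists_prime_orderOf_dvd_card' q hqA
  have hx1 : x ≠ 1 := by
    intro h
    rw [h, orderOf_one] at hx
    exact hq.one_lt.ne hx
  have hxK : x ∈ K := by
    obtain ⟨j, hj⟩ := hK1 x
    have hcop : (p ^ j).Coprime (orderOf x) := by
      rw [hx]
      exact Nat.Coprime.pow_left j ((Nat.coprime_primes Fact.out hq).2 (Ne.symm hqp))
    obtain ⟨m, hm⟩ := exists_pow_eq_self_of_coprime hcop
    rw [← hm]
    exact K.pow_mem hj m
  have hzp : IsPGroup q (Subgroup.zpowers (⟨x, hxK⟩ : K)) := by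
    apply IsPGroup.of_card (n := 1)
    rw [Nat.card_zpowers, pow_one, ← hx]
    exact Subgroup.orderOf_mk x hxK
  obtain ⟨Hs, hHs⟩ := hzp.exists_le_sylow
  let H₀ : Subgroup A := (Hs : Subgroup K).map K.subtype
  have hxH₀ : x ∈ H₀ := ⟨⟨x, hxK⟩, hHs (Subgroup.mem_zpowers _), rfl⟩
  have hH₀q : IsPGroup q H₀ := Hs.2.map K.subtype
  have hfr : Subgroup.normalizer (H₀ : Set A) ⊔ K = ⊤ := Sylow.normalizer_sup_eq_top Hs
  obtain ⟨P₁⟩ : Nonempty (Sylow p (Subgroup.normalizer (H₀ : Set A))) := inferInstance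
  let P₁' : Subgroup A :=
    (P₁ : Subgroup (Subgroup.normalizer (H₀ : Set A))).map
      (Subgroup.normalizer (H₀ : Set A)).subtype
  have hMK : ∀ m ∈ Subgroup.normalizer (H₀ : Set A), ∃ k ∈ K, ∃ n ∈ P₁', m = k * n := by
    haveI hKn : (K.subgroupOf (Subgroup.normalizer (H₀ : Set A))).Normal := hK.subgroupOf _
    have hL : (K.subgroupOf (Subgroup.normalizer (H₀ : Set A)))
        ⊔ (P₁ : Subgroup (Subgroup.normalizer (H₀ : Set A))) = ⊤ := by
      rw [← Subgroup.index_eq_one]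
      have d1 : ((K.subgroupOf (Subgroup.normalizer (H₀ : Set A)))
          ⊔ (P₁ : Subgroup (Subgroup.normalizer (H₀ : Set A)))).index
          ∣ (P₁ : Subgroup (Subgroup.normalizer (H₀ : Set A))).index :=
        Subgroup.index_dvd_of_le le_sup_right
      have d2 : ((K.subgroupOf (Subgroup.normalizer (H₀ : Set A)))
          ⊔ (P₁ : Subgroup (Subgroup.normalizer (H₀ : Set A)))).index
          ∣ (K.subgroupOf (Subgroup.normalizer (H₀ : Set A))).index :=
        Subgroup.index_dvd_of_le le_sup_left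
      have hpq : IsPGroup p (Subgroup.normalizer (H₀ : Set A)
          ⧸ K.subgroupOf (Subgroup.normalizer (H₀ : Set A))) := by
        intro y
        obtain ⟨m, rfl⟩ := QuotientGroup.mk_surjective y
        obtain ⟨j, hj⟩ := hK1 (m : A)
        refine ⟨j, ?_⟩
        rw [← QuotientGroup.mk_pow, QuotientGroup.eq_one_iff]
        exact Subgroup.mem_subgroupOf.2 (by simpa using hj)
      obtain ⟨n, hn⟩ := IsPGroup.iff_card.1 hpq
      have d3 : (K.subgroupOf (Subgroup.normalizer (H₀ : Set A))).index = p ^ n := by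
        rw [← hn]; rfl
      rw [d3] at d2
      obtain ⟨i, hi, hidx⟩ := (Nat.dvd_prime_pow Fact.out).1 d2
      cases i with
      | zero => simpa using hidx
      | succ i =>
        exfalso
        apply P₁.not_dvd_index
        rw [hidx] at d1
        exact dvd_trans (dvd_pow_self p (Nat.succ_ne_zero i)) d1
    intro m hm
    have hmem : (⟨m, hm⟩ : Subgroup.normalizer (H₀ : Set A))
        ∈ (K.subgroupOf (Subgroup.normalizer (H₀ : Set A)))
          ⊔ (P₁ : Subgroup (Subgroup.normalizer (H₀ : Set A))) := by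
      rw [hL]; trivial
    obtain ⟨k, hk, n, hn, hkn⟩ := Subgroup.mem_sup_of_normal_left.1 hmem
    refine ⟨k, Subgroup.mem_subgroupOf.1 hk, n, ⟨n, hn, rfl⟩, ?_⟩
    have h := congrArg Subtype.val hkn
    exact h.symm
  have hAK : ∀ a : A, ∃ k ∈ K, ∃ n ∈ P₁', a = k * n := by
    intro a
    have ha : a ∈ Subgroup.normalizer (H₀ : Set A) ⊔ K := by rw [hfr]; trivial
    obtain ⟨m, hm, k, hk, hmk⟩ := Subgroup.mem_sup_of_normal_right.1 ha
    obtain ⟨k', hk', n, hn, hmn⟩ := hMK m hm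
    refine ⟨k' * (n * k * n⁻¹), K.mul_mem hk' (hK.conj_mem k hk n), n, hn, ?_⟩
    rw [← hmk, hmn]; group
  have hP₁p : IsPGroup p P₁' := P₁.2.map _
  obtain ⟨P₂, hP₂⟩ := hP₁p.exists_le_sylow
  have hP₂dec : ∀ x ∈ (P₂ : Subgroup A), ∃ i ∈ I, ∃ n ∈ (P₂ : Subgroup A), x = i * n ∧
      n ∈ Subgroup.normalizer (H₀ : Set A) := by
    intro x hx
    obtain ⟨k, hk, n, hn, hxkn⟩ := hAK x
    have hnP₂ := hP₂ hn
    have hkP₂ : k ∈ (P₂ : Subgroup A) := by
      have h : k = x * n⁻¹ := by rw [hxkn]; group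
      rw [h]
      exact (P₂ : Subgroup A).mul_mem hx ((P₂ : Subgroup A).inv_mem hnP₂)
    obtain ⟨j, hj⟩ := P₂.2 ⟨k, hkP₂⟩
    have hkj : k ^ p ^ j = 1 := congrArg Subtype.val hj
    refine ⟨k, hK2 k hk j hkj, n, hnP₂, hxkn, ?_⟩
    obtain ⟨n', _, rfl⟩ := hn
    exact n'.2
  obtain ⟨g, hg⟩ := MulAction.exists_smul_eq A P₂ P
  have hPg : ∀ z ∈ (P₂ : Subgroup A), g * z * g⁻¹ ∈ (P : Subgroup A) := by
    intro z hz
    have h3 := Subgroup.smul_mem_pointwise_smul _ (MulAut.conj g) _ hz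
    rw [← Sylow.pointwise_smul_def, ← Sylow.smul_def, hg] at h3
    exact h3
  have hPg' : ∀ y ∈ (P : Subgroup A), g⁻¹ * y * g ∈ (P₂ : Subgroup A) := by
    intro y hy
    have hg' : g⁻¹ • P = P₂ := by rw [← hg, inv_smul_smul]
    have h3 := Subgroup.smul_mem_pointwise_smul _ (MulAut.conj g⁻¹) _ hy
    rw [← Sylow.pointwise_smul_def, ← Sylow.smul_def, hg'] at h3
    have h4 : MulAut.conj g⁻¹ • y = g⁻¹ * y * g := by
      show g⁻¹ * y * g⁻¹⁻¹ = _
      rw [inv_inv]
    rw [← h4]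
    exact h3
  refine ⟨q, ⟨hq⟩, H₀.map (MulAut.conj g).toMonoidHom, hqp, hH₀q.map _, ?_, ?_⟩
  · intro hbot
    have h1 : g * x * g⁻¹ ∈ H₀.map (MulAut.conj g).toMonoidHom := ⟨x, hxH₀, rfl⟩
    rw [hbot, Subgroup.mem_bot] at h1
    apply hx1
    have h2 : x = g⁻¹ * (g * x * g⁻¹) * g := by group
    rw [h2, h1]; group
  · intro y hy
    obtain ⟨i, hi, n, hn, hyin, hnM⟩ := hP₂dec _ (hPg' y hy)
    refine ⟨g * i * g⁻¹, hI.conj_mem i hi g, g * n * g⁻¹, hPg n hn, ?_, ?_⟩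
    · have h1 : y = g * (g⁻¹ * y * g) * g⁻¹ := by group
      rw [h1, hyin]; group
    · rw [← Subgroup.map_equiv_normalizer_eq H₀ (MulAut.conj g)]
      exact ⟨n, hnM, rfl⟩

end Cfsg.Agent.Lib.helper26
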