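import Mathlib
import Cfsg.Agent.Lib.helper26.TateAux

/-!
# The abstract Tate-type theorem (helper26)

`tate_abstract`: `G` a finite `p`-group, `R` a group embedded as a proper normal subgroup of `G`
via `ι`, `A` a finite group acting faithfully on `R` with `c : G →* A` realizing conjugation, the
image of `c` a Sylow `p`-subgroup of `A`; `Qg ⊴ G` with `G' ≤ Qg ≤ Φ(G)`, `Qg ≤ ι(R)` and `Qg`
invariant under `A`.  If for every nontrivial `p'`-element `β` of `A` the subgroup
`{g | ∀ i, β^i c(g) β^{-i} ∈ c(G)}` is contained in `ι(R)`, then `A` is a `p`-group.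
-/

namespace Cfsg.Agent.Lib.helper26

open scoped commutatorElement

section TateAbstract

variable {G R A : Type*} [Group G] [Finite G] [Group R] [Group A] [Finite A] {p : ℕ}
  [Fact p.Prime]

theorem tate_act_conj (ι : R →* G) (hι : Function.Injective ι) (c : G →* A) (act : A →* MulAut R)
    (hc : ∀ g r, ι (act (c g) r) = g * ι r * g⁻¹) (r x : R) :
    act (c (ι r)) x = r * x * r⁻¹ := by
  apply hι
  rw [hc, map_mul, map_mul, map_inv]

theorem tate_conj_c (ι : R →* G) (hι : Function.Injective ι) (c : G →* A) (act : A →* MulAut R)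
    (hact : Function.Injective act)
    (hc : ∀ g r, ι (act (c g) r) = g * ι r * g⁻¹) (a : A) (r : R) :
    a * c (ι r) * a⁻¹ = c (ι (act a r)) := by
  apply hact
  apply MulEquiv.ext
  intro x
  rw [map_mul, map_mul, MulAut.mul_apply, MulAut.mul_apply, tate_act_conj ι hι c act hc,
    tate_act_conj ι hι c act hc, map_mul, map_mul, map_inv act, MulAut.apply_inv_self, map_inv]

theorem tate_norm (ι : R →* G) (c : G →* A)
    (Syl : Sylow p A) (hSyl : (Syl : Subgroup A) = c.range)
    (hfpf : ∀ β : A, ∀ m : ℕ, m.Coprime p → β ^ m = 1 → β ≠ 1 → ∀ g : G,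
        (∀ i : ℕ, β ^ i * c g * (β ^ i)⁻¹ ∈ c.range) → g ∈ ι.range)
    (hRne : ∃ g : G, g ∉ ι.range) :
    Subgroup.normalizer ((Syl : Subgroup A) : Set A) ≤ Syl := by
  intro a ha
  obtain ⟨k, m, hpm, hord⟩ := Nat.exists_eq_pow_mul_and_not_dvd (orderOf_pos a).ne' p
    (Fact.out : p.Prime).ne_one
  have hm : m.Coprime p := ((Nat.Prime.coprime_iff_not_dvd Fact.out).2 hpm).symm
  have hβm : (a ^ p ^ k) ^ m = 1 := by rw [← pow_mul, ← hord, pow_orderOf_eq_one]
  by_cases hβ : a ^ p ^ k = 1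
  · have hz : IsPGroup p (Subgroup.zpowers a) := by
      rintro ⟨y, hy⟩
      obtain ⟨j, rfl⟩ := Subgroup.mem_zpowers_iff.1 hy
      refine ⟨k, Subtype.ext ?_⟩
      show (a ^ j) ^ p ^ k = 1
      rw [← zpow_natCast, ← zpow_mul, mul_comm, zpow_mul, zpow_natCast, hβ, one_zpow]
    have hzn : Subgroup.zpowers a ≤ Subgroup.normalizer ((Syl : Subgroup A) : Set A) := by
      rw [Subgroup.zpowers_le]; exact ha
    have hsup := IsPGroup.to_sup_of_normal_right' hz Syl.2 hzn
    have heq := Syl.is_maximal' hsup le_sup_right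
    have h1 : a ∈ Subgroup.zpowers a ⊔ (Syl : Subgroup A) :=
      Subgroup.mem_sup_left (Subgroup.mem_zpowers a)
    rw [heq] at h1
    exact h1
  · exfalso
    obtain ⟨g, hg⟩ := hRne
    apply hg
    apply hfpf (a ^ p ^ k) m hm hβm hβ g
    intro i
    have hβn : (a ^ p ^ k) ^ i ∈ Subgroup.normalizer ((Syl : Subgroup A) : Set A) :=
      Subgroup.pow_mem _ (Subgroup.pow_mem _ ha _) _
    rw [Subgroup.mem_normalizer_iff] at hβn
    have h1 := (hβn (c g)).1 (by rw [hSyl]; exact ⟨g, rfl⟩)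
    rw [hSyl] at h1
    exact h1

theorem tate_K0 (ι : R →* G) (c : G →* A) (act : A →* MulAut R)
    (hc : ∀ g r, ι (act (c g) r) = g * ι r * g⁻¹)
    (Qg : Subgroup G) (hcomm : commutator G ≤ Qg)
    (Syl : Sylow p A) (hSyl : (Syl : Subgroup A) = c.range)
    (hQinv : ∀ a : A, ∀ r : R, ι r ∈ Qg → ι (act a r) ∈ Qg)
    (hnorm : Subgroup.normalizer ((Syl : Subgroup A) : Set A) ≤ Syl) :
    ∀ a : A, ∀ r : R, ι (r⁻¹ * act a r) ∈ Qg := by
  let K₀ : Subgroup A :=
    { carrier := {a | ∀ r : R, ι (r⁻¹ * act a r) ∈ Qg}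
      one_mem' := by
        intro r
        rw [map_one, MulAut.one_apply, inv_mul_cancel, map_one]
        exact Qg.one_mem
      mul_mem' := by
        intro a b ha hb r
        have h1 := hb r
        have h2 := ha (act b r)
        have h3 : r⁻¹ * act (a * b) r = (r⁻¹ * act b r) * ((act b r)⁻¹ * act a (act b r)) := by
          rw [map_mul, MulAut.mul_apply]; group
        rw [h3, map_mul]
        exact Qg.mul_mem h1 h2
      inv_mem' := by
        intro a ha r
        have h1 := ha (act a⁻¹ r)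
        have h2 : act a (act a⁻¹ r) = r := by rw [map_inv, MulAut.apply_inv_self]
        rw [h2] at h1
        have h3 : r⁻¹ * act a⁻¹ r = ((act a⁻¹ r)⁻¹ * r)⁻¹ := by group
        rw [h3, map_inv]
        exact Qg.inv_mem h1 }
  haveI hK₀n : K₀.Normal := ⟨by
    intro a ha b r
    have h1 := ha (act b⁻¹ r)
    have h2 := hQinv b _ h1
    have h3 : r⁻¹ * act (b * a * b⁻¹) r = act b ((act b⁻¹ r)⁻¹ * act a (act b⁻¹ r)) := by
      rw [map_mul, map_mul, MulAut.mul_apply, MulAut.mul_apply, map_mul (act b),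
        map_inv (act b), map_inv act, MulAut.apply_inv_self]
    show ι (r⁻¹ * act (b * a * b⁻¹) r) ∈ Qg
    rw [h3]
    exact h2⟩
  have hle : (Syl : Subgroup A) ≤ K₀ := by
    rw [hSyl]
    rintro _ ⟨g, rfl⟩ r
    show ι (r⁻¹ * act (c g) r) ∈ Qg
    rw [map_mul, hc, map_inv]
    apply hcomm
    have h1 : (ι r)⁻¹ * (g * ι r * g⁻¹) = ⁅(ι r)⁻¹, g⁆ := by
      rw [commutatorElement_def]; group
    rw [h1, commutator_def]
    exact Subgroup.commutator_mem_commutator (Subgroup.mem_top _) (Subgroup.mem_top _)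
  have htop : K₀ = ⊤ := by
    have h1 : Subgroup.normalizer ((Syl : Subgroup A) : Set A) ⊔ K₀ = ⊤ :=
      Sylow.normalizer_sup_eq_top' Syl hle
    rw [sup_eq_right.2 (hnorm.trans hle)] at h1
    exact h1
  intro a
  have ha : a ∈ K₀ := by rw [htop]; trivial
  exact ha

theorem tate_fix (ι : R →* G) (hι : Function.Injective ι) (act : A →* MulAut R)
    (hG : IsPGroup p G) (Qg : Subgroup G)
    (hK0 : ∀ a : A, ∀ r : R, ι (r⁻¹ * act a r) ∈ Qg)
    (q : ℕ) [Fact q.Prime] (hqp : q ≠ p) (H : Subgroup A) (hHq : IsPGroup q H) (r : R) :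
    ∃ s : R, ι (r⁻¹ * s) ∈ Qg ∧ ∀ h ∈ H, act h s = s := by
  classical
  haveI : Finite R := Finite.of_injective ι hι
  letI : MulAction H R := MulAction.compHom R (act.comp H.subtype)
  let X : SubMulAction H R :=
    { carrier := {s | ι (r⁻¹ * s) ∈ Qg}
      smul_mem' := by
        intro h s hs
        show ι (r⁻¹ * act (h : A) s) ∈ Qg
        have h1 := hK0 (h : A) s
        have h2 : r⁻¹ * act (h : A) s = (r⁻¹ * s) * (s⁻¹ * act (h : A) s) := by group
        rw [h2, map_mul]
        exact Qg.mul_mem hs h1 }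
  have hcard : ¬ q ∣ Nat.card X := by
    let eX : X ≃ (Qg.comap ι) :=
      { toFun := fun s => ⟨r⁻¹ * s.1, s.2⟩
        invFun := fun t => ⟨r * t.1, by
          show ι (r⁻¹ * (r * t.1)) ∈ Qg
          rw [inv_mul_cancel_left]
          exact t.2⟩
        left_inv := fun s => Subtype.ext (mul_inv_cancel_left r s.1)
        right_inv := fun t => Subtype.ext (inv_mul_cancel_left r t.1) }
    rw [Nat.card_congr eX]
    have hpg : IsPGroup p (Qg.comap ι) := by
      intro t
      obtain ⟨k, hk⟩ := hG (ι t.1)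
      refine ⟨k, Subtype.ext (hι ?_)⟩
      show ι (t.1 ^ p ^ k) = ι 1
      rw [map_pow, hk, map_one]
    obtain ⟨n, hn⟩ := IsPGroup.iff_card.1 hpg
    rw [hn]
    intro hdvd
    have h1 := (Fact.out : q.Prime).dvd_of_dvd_pow hdvd
    exact hqp ((Nat.prime_dvd_prime_iff_eq Fact.out Fact.out).1 h1)
  obtain ⟨⟨s, hs⟩, hfixed⟩ := hHq.nonempty_fixed_point_of_prime_not_dvd_card X hcard
  refine ⟨s, hs, fun h hh => ?_⟩
  have h1 := hfixed ⟨h, hh⟩
  exact congrArg Subtype.val h1


/-- **Abstract Tate-type theorem.** -/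
theorem tate_abstract (hG : IsPGroup p G) (ι : R →* G) (hι : Function.Injective ι)
    (c : G →* A) (act : A →* MulAut R) (hact : Function.Injective act)
    (hc : ∀ g r, ι (act (c g) r) = g * ι r * g⁻¹)
    (Qg : Subgroup G) [hQn : Qg.Normal] (hQR : Qg ≤ ι.range) (hcomm : commutator G ≤ Qg)
    (hfrat : Qg ≤ frattini G)
    (Syl : Sylow p A) (hSyl : (Syl : Subgroup A) = c.range)
    (hQinv : ∀ a : A, ∀ r : R, ι r ∈ Qg → ι (act a r) ∈ Qg)
    (hfpf : ∀ β : A, ∀ m : ℕ, m.Coprime p → β ^ m = 1 → β ≠ 1 → ∀ g : G,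
        (∀ i : ℕ, β ^ i * c g * (β ^ i)⁻¹ ∈ c.range) → g ∈ ι.range)
    (hRne : ∃ g : G, g ∉ ι.range) : IsPGroup p A := by
  classical
  by_contra hnp
  have hnorm := tate_norm ι c Syl hSyl hfpf hRne
  have hK0 := tate_K0 ι c act hc Qg hcomm Syl hSyl hQinv hnorm
  have hconj := tate_conj_c ι hι c act hact hc
  -- the inner automorphisms
  let I : Subgroup A := (c.comp ι).range
  haveI hIn : I.Normal := ⟨by
    rintro _ ⟨r, rfl⟩ a
    exact ⟨act a r, (hconj a r).symm⟩⟩
  have hIP : I ≤ (Syl : Subgroup A) := by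
    rw [hSyl]
    rintro _ ⟨r, rfl⟩
    exact ⟨ι r, rfl⟩
  have hab : ∀ x ∈ (Syl : Subgroup A), ∀ y ∈ (Syl : Subgroup A), x * y * x⁻¹ * y⁻¹ ∈ I := by
    rw [hSyl]
    rintro _ ⟨g, rfl⟩ _ ⟨h, rfl⟩
    have h1 : ⁅g, h⁆ ∈ commutator G := by
      rw [commutator_def]
      exact Subgroup.commutator_mem_commutator (Subgroup.mem_top _) (Subgroup.mem_top _)
    obtain ⟨r, hr⟩ := hQR (hcomm h1)
    refine ⟨r, ?_⟩
    show c (ι r) = _
    rw [hr, commutatorElement_def, map_mul, map_mul, map_mul, map_inv, map_inv]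
  obtain ⟨K, hKn, hIK, hK1, hK2⟩ := burnside_quot Syl I hIP hab hnorm
  haveI := hKn
  obtain ⟨q, hqF, H, hqp, hHq, hHne, hdec⟩ := exists_q_subgroup Syl I K hK1 hK2 hnp
  haveI := hqF
  -- card of H is coprime to p
  have hcopH : (Nat.card H).Coprime p := by
    obtain ⟨n, hn⟩ := IsPGroup.iff_card.1 hHq
    rw [hn]
    exact Nat.Coprime.pow_left n ((Nat.coprime_primes Fact.out Fact.out).2 hqp)
  have hHpow : ∀ h ∈ H, h ^ Nat.card H = 1 := by
    intro h hh
    have h1 := pow_card_eq_one' (G := H) (x := ⟨h, hh⟩)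
    exact congrArg Subtype.val h1
  -- the kernel of `c` lies in `ι(R)`
  have hker : ∀ u : G, c u = 1 → u ∈ ι.range := by
    intro u hu
    obtain ⟨h, hh, hne⟩ : ∃ h ∈ H, h ≠ 1 := by
      by_contra hcon
      push Not at hcon
      exact hHne ((Subgroup.eq_bot_iff_forall H).2 hcon)
    apply hfpf h (Nat.card H) hcopH (hHpow h hh) hne u
    intro i
    rw [hu, mul_one, mul_inv_cancel]
    exact Subgroup.one_mem _
  -- all of `G` normalizes `H`
  have hG1 : (Subgroup.normalizer (H : Set A)).comap c = ⊤ := by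
    apply frattini_nongenerating
    rw [eq_top_iff]
    have hιmem : ∀ r : R, ι r ∈ (Subgroup.normalizer (H : Set A)).comap c ⊔ frattini G := by
      intro r
      obtain ⟨s, hs, hfixs⟩ := tate_fix ι hι act hG Qg hK0 q hqp H hHq r
      have h1 : ι r = ι s * (ι (r⁻¹ * s))⁻¹ := by
        rw [map_mul, map_inv]; group
      rw [h1]
      apply Subgroup.mul_mem _ (Subgroup.mem_sup_left ?_)
        (Subgroup.inv_mem _ (Subgroup.mem_sup_right (hfrat hs)))
      rw [Subgroup.mem_comap]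
      apply Subgroup.centralizer_le_normalizer
      rw [Subgroup.mem_centralizer_iff]
      intro k hk
      have h2 := hconj k s
      rw [hfixs k hk] at h2
      calc k * c (ι s) = (k * c (ι s) * k⁻¹) * k := by group
        _ = c (ι s) * k := by rw [h2]
    intro g _
    have hcg : c g ∈ (Syl : Subgroup A) := by rw [hSyl]; exact ⟨g, rfl⟩
    obtain ⟨i, ⟨r, hr⟩, n, hn, hgin, hnN⟩ := hdec (c g) hcg
    rw [hSyl] at hn
    obtain ⟨g', rfl⟩ := hn
    have hu : c ((ι r * g')⁻¹ * g) = 1 := by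
      rw [map_mul, map_inv, map_mul, hgin, ← hr]
      show (c (ι r) * c g')⁻¹ * (c (ι r) * c g') = 1
      rw [inv_mul_cancel]
    obtain ⟨r', hr'⟩ := hker _ hu
    have h1 : g = ι r * g' * ι r' := by rw [hr']; group
    rw [h1]
    exact Subgroup.mul_mem _ (Subgroup.mul_mem _ (hιmem r)
      (Subgroup.mem_sup_left (Subgroup.mem_comap.2 hnN))) (hιmem r')
  have hGn : ∀ g : G, ∀ h ∈ H, c g * h * (c g)⁻¹ ∈ H := by
    intro g h hh
    have h1 : g ∈ (Subgroup.normalizer (H : Set A)).comap c := by rw [hG1]; trivial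
    rw [Subgroup.mem_comap, Subgroup.mem_normalizer_iff] at h1
    exact (h1 h).1 hh
  -- transport to `ι.range`
  haveI hRn : ι.range.Normal := ⟨by
    rintro _ ⟨r, rfl⟩ g
    exact ⟨act (c g) r, hc g r⟩⟩
  let e : R ≃* ι.range := MonoidHom.ofInjective hι
  let act' : A →* MulAut ι.range := (MulAut.congr e).toMonoidHom.comp act
  have hact'inj : Function.Injective act' := (MulAut.congr e).injective.comp hact
  have hact' : ∀ (a : A) (s : R), act' a (e s) = e (act a s) := by
    intro a s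
    show e (act a (e.symm (e s))) = _
    rw [MulEquiv.symm_apply_apply]
  have hcn : ∀ g : G, (MulAut.conjNormal g : MulAut ι.range) = act' (c g) := by
    intro g
    apply MulEquiv.ext
    intro x
    obtain ⟨s, rfl⟩ := e.surjective x
    rw [hact']
    apply Subtype.ext
    rw [MulAut.conjNormal_apply]
    show g * ι s * g⁻¹ = ι (act (c g) s)
    rw [hc]
  have hbot : H.map act' = ⊥ := by
    apply fpf_contra hG (H.map act') ?_ Qg hfrat
    · rintro g _ ⟨h, hh, rfl⟩
      rw [hcn, ← map_inv, ← map_mul, ← map_mul]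
      exact ⟨_, hGn g h hh, rfl⟩
    · rintro _ ⟨h, hh, rfl⟩ r'
      obtain ⟨s, rfl⟩ := e.surjective r'
      rw [hact']
      show (ι s)⁻¹ * ι (act h s) ∈ Qg
      rw [← map_inv, ← map_mul]
      exact hK0 h s
    · rintro g hg _ ⟨h, hh, rfl⟩ hcm
      rw [hcn, ← map_mul, ← map_mul] at hcm
      have hcm' : c g * h = h * c g := hact'inj hcm
      by_contra hne
      have hne1 : h ≠ 1 := by
        intro h1
        apply hne
        show act' h = 1
        rw [h1, map_one]
      apply hg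
      apply hfpf h (Nat.card H) hcopH (hHpow h hh) hne1 g
      intro i
      have h2 : h ^ i * c g * (h ^ i)⁻¹ = c g := by
        have h3 : Commute (c g) (h ^ i) := (Commute.pow_right hcm' i)
        rw [← h3.eq, mul_inv_cancel_right]
      rw [h2]
      exact ⟨g, rfl⟩
    · rw [Subgroup.card_map_of_injective hact'inj]
      exact hcopH
  exact hHne ((Subgroup.map_eq_bot_iff_of_injective H hact'inj).1 hbot)

end TateAbstract

end Cfsg.Agent.Lib.helper26
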